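import Cfsg.Agent.X9.HFin
import Cfsg.Agent.LX.NW2
import Cfsg.Agent.Gold.Defs

/-!
A large extraspecial group of order `512` on which `Ω₄⁺(4)` acts.
-/

set_option autoImplicit false
set_option linter.unusedSectionVars false

namespace Cfsg.Lib.X9

open Subgroup Cfsg.Lib.Local Cfsg.Lib.LX Cfsg.Lib.HN3.M4 HF Module Cfsg.Lib.Gold
open scoped commutatorElement

universe u

variable {G : Type u} [Group G]

/-- Coordinates in which the centraliser of `z` induces all two-sided multiplications. -/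
structure HC (z : G) where
  S : Sh (qOf z) z E
  q_eq : ∀ M, S.q M = 0 ↔ qf M = false
  lift : ∀ K L, det K = 1 → det L = 1 → ∃ g ∈ centralizer ({z} : Set G), ∀ M, S.ρ g M = K * M * L
  nw : ∃ s, NW z s
  hD : ∀ x ∈ qOf z, det (S.π x) = 1 → ¬ IsConj z x

/-- Words in two generators. -/
def wdE : ℕ → ℕ → E
  | 0, _ => 1
  | k + 1, n => if n < 2 then 1 else (if n % 2 = 0 then S else T) * wdE k (n / 2)

theorem gen_ST : ∀ K, det K = 1 → ∃ n ∈ [1, 2, 3, 4, 6, 5, 12, 10, 9, 13, 20, 18, 26, 25, 21, 36, 52, 50, 42, 41, 37, 53, 100, 84,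
    82, 74, 106, 105, 101, 164, 148, 212, 210, 202, 169, 165, 420, 404, 338, 330, 297, 425, 421,
    676, 660, 594, 850, 842, 809, 677, 1188, 1700, 1684, 1618, 1321, 1189, 2642, 3369, 3237,
    6738], K = wdE 12 n := by
  decide +kernel

theorem lift_of_gen {z : G} (R : Sh (qOf z) z E)
    (h : ∀ K ∈ [S, T], (∃ g ∈ centralizer ({z} : Set G), ∀ M, R.ρ g M = K * M) ∧
      ∃ g ∈ centralizer ({z} : Set G), ∀ M, R.ρ g M = M * K) :
    ∀ K L, det K = 1 → det L = 1 →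
      ∃ g ∈ centralizer ({z} : Set G), ∀ M, R.ρ g M = K * M * L := by
  have key : ∀ k n, (∃ g ∈ centralizer ({z} : Set G), ∀ M, R.ρ g M = wdE k n * M) ∧
      ∃ g ∈ centralizer ({z} : Set G), ∀ M, R.ρ g M = M * wdE k n := fun k => by
    induction k with
    | zero => exact fun n => ⟨⟨1, one_mem _, fun M => by rw [R.ρ_one, wdE, one_mul]⟩,
        1, one_mem _, fun M => by rw [R.ρ_one, wdE, mul_one]⟩
    | succ k ih =>
      intro n
      rw [wdE]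
      by_cases c : n < 2
      · rw [if_pos c]
        exact ⟨⟨1, one_mem _, fun M => by rw [R.ρ_one, one_mul]⟩,
          1, one_mem _, fun M => by rw [R.ρ_one, mul_one]⟩
      rw [if_neg c]
      obtain ⟨⟨a, ha, a1⟩, b, hb, b1⟩ := ih (n / 2)
      obtain ⟨⟨a', ha', a2⟩, b', hb', b2⟩ := h (if n % 2 = 0 then S else T) (by split_ifs <;> simp)
      exact ⟨⟨_, mul_mem ha' ha, fun M => by rw [R.ρ_mul ha' ha, a1, a2, mul_assoc]⟩,
        _, mul_mem hb hb', fun M => by rw [R.ρ_mul hb hb', b1, b2, mul_assoc]⟩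
  intro K L k l
  obtain ⟨n, -, rfl⟩ := gen_ST K k
  obtain ⟨m, -, rfl⟩ := gen_ST L l
  obtain ⟨a, ha, a1⟩ := (key 12 n).1
  obtain ⟨b, hb, b1⟩ := (key 12 m).2
  exact ⟨_, mul_mem hb ha, fun M => by rw [R.ρ_mul hb ha, a1, b1]⟩

theorem finrank_E : finrank (ZMod 2) E = 8 :=
  Nat.pow_right_injective le_rfl ((card_eq_pow (V := E)).symm.trans card_E)

namespace HC

variable {z : G} (h : HC z)

include h in
theorem pre : PreLX (qOf z) z := h.S.pre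

include h in
theorem zz : z * z = 1 := h.pre.mul_self

theorem sq {x : G} (hx : x ∈ qOf z) : x * x = 1 ↔ qf (h.S.π x) = false := by
  rw [← h.q_eq, h.S.q_π x hx]

theorem sq' {x : G} (hx : x ∈ qOf z) : x * x = z ↔ qf (h.S.π x) = true := by
  rw [← h.S.q_π_one hx, ← z2_ne_zero, Ne, h.q_eq, Bool.not_eq_false]

theorem b_eq (M N : E) : h.S.b M N = 0 ↔ bf M N = false := by
  have e := h.S.q_add M N
  have e1 := h.q_eq M
  have e2 := h.q_eq N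
  have e3 := h.q_eq (M + N)
  rw [bf_eq]
  revert e e1 e2 e3
  generalize h.S.q (M + N) = a, h.S.q M = b, h.S.q N = c, h.S.b M N = d, qf (M + N) = a',
    qf M = b', qf N = c'
  revert a b c d a' b' c'
  decide

theorem b_eq' (M N : E) : h.S.b M N = 1 ↔ bf M N = true := by
  rw [← z2_ne_zero, Ne, h.b_eq, Bool.not_eq_false]

theorem cm {x y : G} (hx : x ∈ qOf z) (hy : y ∈ qOf z) :
    x * y = y * x ↔ bf (h.S.π x) (h.S.π y) = false := by
  rw [← h.b_eq, h.S.b_π x hx y hy]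

theorem cm' {x y : G} (hx : x ∈ qOf z) (hy : y ∈ qOf z) :
    x * y * x⁻¹ = z * y ↔ bf (h.S.π x) (h.S.π y) = true := by
  rw [← h.b_eq', h.S.b_π_one hx hy]

theorem cj_z {x : G} (hx : x ∈ qOf z) (e : h.S.π x ≠ 0) : IsConj x (x * z) := by
  obtain ⟨M, e⟩ := h.S.exists_b e
  obtain ⟨w, hw, rfl⟩ := h.S.π_surj M
  exact isConj_iff.2 ⟨w, by rw [(h.S.b_π_one hw hx).1 e, h.pre.central x hx]⟩

theorem cj_of_π {x y : G} (hx : x ∈ qOf z) (hy : y ∈ qOf z) (e : h.S.π x ≠ 0) (e' : h.S.π x = h.S.π y) :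
    IsConj x y := by
  rcases (h.S.π_eq_iff hx hy).1 e' with rfl | rfl
  exacts [IsConj.refl _, h.cj_z hx e]

theorem det0 {x : G} (hx : x ∈ qOf z) (e : IsConj z x) : det (h.S.π x) = 0 := by
  by_contra k
  obtain ⟨g, rfl⟩ := isConj_iff.1 e
  exact h.hD _ hx ((det_one _).2 ⟨(h.sq hx).1 (by rw [conj_mul, h.zz, mul_one, mul_inv_cancel]), k⟩) e

theorem exists_s : ∃ s, NW z s ∧ h.S.π s = e12 := by
  obtain ⟨s, n⟩ := h.nw
  obtain ⟨K, L, k, l, e⟩ := orb12 _ (h.det0 n.mem n.cj) (n.π_ne h.S)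
  obtain ⟨g, hg, a⟩ := h.lift K L k l
  exact ⟨_, n.conj' hg, by rw [← h.S.ρ_π g hg s n.mem, a, e]⟩

theorem mem_D {x : G} (hx : x ∈ qOf z) (e : det (h.S.π x) = 0) (e' : h.S.π x ≠ 0) : IsConj z x := by
  obtain ⟨s, n, a⟩ := h.exists_s
  obtain ⟨K, L, k, l, b⟩ := orb12 _ e e'
  obtain ⟨g, hg, c⟩ := h.lift K L k l
  exact n.cj.trans ((h.cj_of_π n.mem (h.S.conj_mem hg hx) (n.π_ne h.S)
    (by rw [← h.S.ρ_π g hg x hx, c, b, a])).trans (isConj_conj g x).symm)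

theorem ok {g : G} (hg : g ∈ C1 z) : Ok (h.S.ρ g) := by
  have k : ∀ g ∈ C1 z, ∀ M, det M = 0 → det (h.S.ρ g M) = 0 := fun g hg M e => by
    obtain ⟨x, hx, rfl⟩ := h.S.π_surj M
    by_cases e' : h.S.π x = 0
    · rw [e', map_zero]; rfl
    · rw [h.S.ρ_π g hg x hx]
      exact h.det0 (h.S.conj_mem hg hx) ((h.mem_D hx e e').trans (isConj_conj g x))
  refine ⟨map_add _, fun M => ⟨_, h.S.ρ_ρ_inv hg M⟩, fun M => ⟨fun e => ?_, k g hg M⟩, fun M => ?_⟩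
  · exact h.S.ρ_inv_ρ hg M ▸ k _ (inv_mem hg) _ e
  · rw [Bool.eq_iff_iff, ← not_iff_not, Bool.not_eq_true, Bool.not_eq_true, ← h.q_eq, ← h.q_eq,
      h.S.q_ρ hg]

/-- The elements acting as the image of the Harada–Norton group does. -/
def H0 : Subgroup G where
  carrier := {g | g ∈ C1 z ∧ (Ty id (h.S.ρ g) ∨ Ty τ (h.S.ρ g))}
  one_mem' := ⟨one_mem _, .inl ⟨1, 1, det_1, det_1, fun M => by simp [h.S.ρ_one]⟩⟩
  mul_mem' := by
    rintro a b ⟨ha, a1 | a1⟩ ⟨hb, b1 | b1⟩ <;> refine ⟨mul_mem ha hb, ?_⟩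
    exacts [.inl (a1.comp b1 good_id (fun _ => rfl) (h.S.ρ_mul ha hb)),
      .inr (a1.comp b1 good_id (fun _ => rfl) (h.S.ρ_mul ha hb)),
      .inr (a1.comp b1 good_τ (fun _ => rfl) (h.S.ρ_mul ha hb)),
      .inl (a1.comp b1 good_τ ττ (h.S.ρ_mul ha hb))]
  inv_mem' := fun ⟨ha, a1⟩ => ⟨inv_mem ha, a1.imp (fun k => k.inv good_id (h.S.ρ_ρ_inv ha))
    fun k => k.inv good_τ (h.S.ρ_ρ_inv ha)⟩

theorem out {g : G} (hg : g ∈ C1 z) (n : g ∉ h.H0) : Ty adj (h.S.ρ g) ∨ Ty fr (h.S.ρ g) :=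
  ((h.ok hg).ty.resolve_left fun e => n ⟨hg, .inl e⟩).resolve_left fun e => n ⟨hg, .inr e⟩

theorem idx : IdxLeTwo h.H0 (C1 z) := fun a ha b hb n1 n2 => by
  refine ⟨mul_mem ha hb, ?_⟩
  rcases h.out ha n1 with a1 | a1 <;> rcases h.out hb n2 with b1 | b1
  exacts [.inl (a1.comp b1 good_adj adj_adj (h.S.ρ_mul ha hb)),
    .inr (a1.comp b1 good_adj adj_fr (h.S.ρ_mul ha hb)),
    .inr (a1.comp b1 good_fr fr_adj (h.S.ρ_mul ha hb)),
    .inl (a1.comp b1 good_fr fr_fr (h.S.ρ_mul ha hb))]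

theorem stab {g : G} (hg : g ∈ C1 z) (e : h.S.ρ g 1 = 1) : ∃ K, det K = 1 ∧
    ((∀ M, h.S.ρ g M = cj K M) ∨ (∀ M, h.S.ρ g M = cj K (τ M)) ∨
      (∀ M, h.S.ρ g M = cj K (adj M)) ∨ ∀ M, h.S.ρ g M = cj K (fr M)) := core3 (h.ok hg) e

theorem inverts {x w y : G} (hx : x ∈ C1 z) (xx : x * x = 1) (hw : w ∈ qOf z) (hy : y ∈ qOf z)
    (e : h.S.ρ x (h.S.π w) + h.S.π w = h.S.π y) : x * y * x⁻¹ = y⁻¹ := by
  have k : x * ⁅x, w⁆ * x⁻¹ = ⁅x, w⁆⁻¹ := by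
    rw [commutatorElement_def, show x * (x * w * x⁻¹ * w⁻¹) * x⁻¹ =
      x * x * w * (x * x)⁻¹ * (x * w⁻¹ * x⁻¹) by group, xx]
    group
  rw [← Sh.N_apply, h.S.N_π hx hw] at e
  rcases (h.S.π_eq_iff (h.S.comm_mem hx hw) hy).1 e with rfl | rfl
  · exact k
  · rw [← conj_mul, k, conj_eq_of_mem_C hx, mul_inv_rev, inv_eq_of_mul_eq_one_right h.zz,
      h.pre.central _ (inv_mem (h.S.comm_mem hx hw))]

theorem ρ_comm {g x : G} (hg : g ∈ C1 z) (hx : x ∈ qOf z) (e : g * x = x * g) :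
    h.S.ρ g (h.S.π x) = h.S.π x := by
  rw [h.S.ρ_π g hg x hx, e, mul_inv_cancel_right]

theorem conj_or {g x y : G} (hg : g ∈ C1 z) (hx : x ∈ qOf z) (hy : y ∈ qOf z)
    (e : h.S.ρ g (h.S.π x) = h.S.π y) : g * x * g⁻¹ = y ∨ g * x * g⁻¹ = y * z :=
  (h.S.π_eq_iff hy (h.S.conj_mem hg hx)).1 (by rw [← e, h.S.ρ_π g hg x hx])

theorem lift_cj {r : G} (hr : r ∈ qOf z) (e : h.S.π r = 1) {K : E} (k : det K = 1) :
    ∃ g ∈ C1 z, g * r = r * g ∧ ∀ M, h.S.ρ g M = cj K M := by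
  obtain ⟨g, hg, a⟩ := h.lift K (adj K) k (det_adj1 k)
  rcases h.conj_or hg hr hr (by rw [e, a]; exact cj_1 k) with b | b
  · exact ⟨g, hg, mul_inv_eq_iff_eq_mul.1 b, a⟩
  · obtain ⟨w, hw, c⟩ := h.S.π_surj w11
    refine ⟨w * g, mul_mem (h.pre.le_cent hw) hg, mul_inv_eq_iff_eq_mul.1 ?_, fun M => ?_⟩
    · rw [show w * g * r * (w * g)⁻¹ = w * (g * r * g⁻¹) * w⁻¹ by group, b, ← conj_mul,
        (h.cm' hw hr).2 (by rw [c, e]; rfl), conj_eq_of_mem_C (h.pre.le_cent hw),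
        ← h.pre.central r hr, mul_assoc, h.zz, mul_one]
    · rw [h.S.ρ_mul (h.pre.le_cent hw) hg, h.S.ρ_of_mem hw, a]; rfl

variable [Finite G]

theorem same {g k : G} (hg : g ∈ C1 z) (hk : k ∈ C1 z) (e : ∀ M, h.S.ρ g M = h.S.ρ k M) : k⁻¹ * g ∈ qOf z :=
  h.S.mem_of_ρ (mul_mem (inv_mem hk) hg) fun M => by
    rw [h.S.ρ_mul (inv_mem hk) hg, e, h.S.ρ_inv_ρ hk]

include h in
theorem card_Q : Nat.card (qOf z) = 2 ^ 9 := by
  have := h.S.card_of_mem le_rfl h.pre.mem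
  rwa [h.S.img_self, finrank_top, finrank_E] at this

end HC

end Cfsg.Lib.X9
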