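import Cfsg.Agent.X9.HDefs
import Cfsg.Agent.Apw.Defs

/-!
In a simple group the centraliser of the involution induces no reflection.
-/

set_option autoImplicit false
set_option linter.unusedSectionVars false

namespace Cfsg.Lib.X9

open Subgroup Cfsg.Lib.Local Cfsg.Lib.LX Cfsg.Lib.HN3.M4 HF Module Cfsg.Lib.Gold Cfsg.Lib.Solv
open scoped commutatorElement Pointwise

universe u

variable {G : Type u} [Group G] [Finite G]

theorem zo {M N : E} (h : M + N = 0 ∨ M + N = 1) (k : N = 0 ∨ N = 1) : M = 0 ∨ M = 1 := by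
  rcases k with rfl | rfl
  · simpa using h
  · exact h.symm.imp (fun e => by simpa using e) fun e => add_eq_zero'.1 e

namespace HC

variable {z : G} {h : HC z}

/-- An involution acting as the adjugate. -/
structure Th (h : HC z) (y : G) : Prop where
  mem : y ∈ C1 z
  yy : y * y = 1
  act : ∀ M, h.S.ρ y M = adj M

namespace Th

variable {y : G} (t : h.Th y)
include t

theorem ne_W {p : G} (hp : p ∈ qOf z) (c : y * p = p * y) :
    h.S.π p ≠ W ∧ h.S.π p ≠ W + 1 := by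
  have key : ∀ N, adj N + N = h.S.π p → qf (h.S.π p) = false := fun N e => by
    obtain ⟨w, hw, rfl⟩ := h.S.π_surj N
    have := h.inverts t.mem t.yy hw hp (by rw [t.act, e])
    rw [c, mul_inv_cancel_right] at this
    exact (h.sq hp).1 (mul_eq_one_iff_eq_inv.2 this)
  exact ⟨fun e => absurd (key w11 (e ▸ rfl)) (by rw [e]; decide),
    fun e => absurd (key ⟨.v, .o, .o, .o⟩ (e ▸ rfl)) (by rw [e]; decide)⟩

theorem fix {M : E} (e : adj M = M) :
    ∃ p ∈ qOf z, y * p = p * y ∧ (h.S.π p = M ∨ h.S.π p = M + W) := by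
  obtain ⟨x, hx, rfl⟩ := h.S.π_surj M
  obtain ⟨c, hc, e1⟩ := h.S.π_surj W
  obtain ⟨w, hw, e2⟩ := h.S.π_surj w11
  rcases h.conj_or t.mem hx hx (by rw [t.act, e]) with k | k
  · exact ⟨x, hx, mul_inv_eq_iff_eq_mul.1 k, .inl rfl⟩
  · refine ⟨x * c, mul_mem hx hc, mul_inv_eq_iff_eq_mul.1 ?_, .inr (by rw [h.S.π_mul _ hx _ hc, e1])⟩
    rw [← conj_mul, k, h.inverts t.mem t.yy hw hc (by rw [t.act, e1, e2]; rfl),
      ← (h.sq' hc).2 (by rw [e1]; rfl), mul_assoc, mul_inv_cancel_right]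

theorem rad {p : G} (hp : p ∈ qOf z) (c : y * p = p * y)
    (k : ∀ a ∈ qOf z, y * a = a * y → a * p = p * a) : h.S.π p = 0 ∨ h.S.π p = 1 := by
  have := HF.rad _ ((t.act _).symm.trans (h.ρ_comm t.mem hp c)) fun N hN => by
    obtain ⟨a, ha, a1, a2⟩ := t.fix (N4_adj N hN).1
    have := (h.cm ha hp).1 (k a ha a1)
    exact a2.imp (fun e => by rwa [e] at this) fun e => by rwa [e] at this
  have := t.ne_W hp c
  tauto

theorem cen {a : G} (ha : a ∈ C1 z) (k : ∀ p ∈ qOf z, y * p = p * y →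
    h.S.ρ a (h.S.π p) + h.S.π p = 0 ∨ h.S.ρ a (h.S.π p) + h.S.π p = 1) :
    a ∈ qOf z ∨ ∀ M, h.S.ρ a M = adj M := by
  have a1 : h.S.ρ a 1 = 1 := by
    obtain ⟨p, hp, c, e⟩ := t.fix (M := 1) rfl
    have := k p hp c
    rw [e.resolve_right fun e => (t.ne_W hp c).2 (e.trans (add_comm _ _))] at this
    exact (zo this (.inr rfl)).resolve_left fun e => absurd ((h.S.ρ_eq_zero ha).1 e) (by decide)
  obtain ⟨K, k1, k2⟩ := h.stab ha a1
  have a2 : h.S.ρ a W + W = 0 ∨ h.S.ρ a W + W = 1 := by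
    rcases k2 with e | e | e | e <;> rw [e]
    exacts [.inl (by rw [(cjW K k1).1]; rfl), .inr (by rw [(cjW K k1).2]; rfl),
      .inl (by rw [show adj W = W from rfl, (cjW K k1).1]; rfl),
      .inr (by rw [show fr W = τ W from rfl, (cjW K k1).2]; rfl)]
  have a3 : ∀ N ∈ N4, h.S.ρ a N + N = 0 ∨ h.S.ρ a N + N = 1 := fun N hN => by
    obtain ⟨p, hp, c, e | e⟩ := t.fix (N4_adj N hN).1
    · exact e ▸ k p hp c
    · have := k p hp c
      rw [e, map_add, add_add_add_comm] at this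
      exact zo this a2
  obtain ⟨b1, b2, b3, b4⟩ := cen4 K k1
  rcases k2 with e | e | e | e <;> simp only [e] at a3
  · exact .inl (h.S.mem_of_ρ ha fun M => by rw [e, b1 a3, cj_one])
  · exact (b2 a3).elim
  · exact .inr fun M => by rw [e, b3 a3, cj_one]
  · exact (b4 a3).elim

theorem notMem : y ∉ qOf z := fun e =>
  absurd ((t.act e11).symm.trans (h.S.ρ_of_mem e _)) (by decide)

theorem not_conj : ¬ IsConj z y := fun cj => by
  have p := h.pre.qOf_of_conj (isConj_iff.1 cj)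
  have zy : z * y = y * z := (mem_C.1 t.mem).symm
  have n : z ∉ qOf y := fun e => t.notMem (NW.zs ⟨p, cj.symm, e, fun k => t.notMem (k ▸ h.pre.mem)⟩)
  have cm : ∀ a ∈ qOf y, ∀ b, y * b = b * y → ⁅a, b⁆ ∈ qOf y := fun a ha b c => by
    rw [commutatorElement_def, mul_assoc, mul_assoc, ← mul_assoc b]
    exact mul_mem ha (conj_mem_of_mem_normalizer (p.norm (mem_C.2 c.symm)) (inv_mem ha))
  have e1 : ∀ e ∈ qOf z, e ∈ qOf y → h.S.π e = 0 ∨ h.S.π e = 1 := fun e he he' =>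
    t.rad he (p.central e he').symm fun a ha c => (commutatorElement_eq_one_iff_mul_comm.1
      ((h.pre.mem_iff.1 (h.pre.commutator_mem he ha)).resolve_right
        fun k => n (k ▸ cm e he' a c))).symm
  have e2 : ∀ a ∈ qOf y, a * z = z * a → a ∈ qOf z ∨ a * y ∈ qOf z := fun a ha c =>
    (t.cen (mem_C.2 c) fun b hb k => by
      rw [← Sh.N_apply, h.S.N_π (mem_C.2 c) hb]
      exact e1 _ (h.S.comm_mem (mem_C.2 c) hb) (cm a ha b k)).imp_right fun k =>
        h.S.mem_of_ρ (mul_mem (mem_C.2 c) t.mem) fun M => by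
          rw [h.S.ρ_mul (mem_C.2 c) t.mem, t.act, k, adj_adj]
  have e3 : ∃ e ∈ qOf y, ∀ a ∈ qOf z, a ∈ qOf y → a = 1 ∨ a = e := by
    have k : ∀ a ∈ qOf z, a ∈ qOf y → a = 1 ∨ h.S.π a = 1 := fun a ha ha' =>
      (e1 a ha ha').imp_left fun k => ((h.S.π_eq_zero' ha).1 k).resolve_right fun k => n (k ▸ ha')
    by_cases c : ∃ e ∈ qOf y, e ∈ qOf z ∧ h.S.π e = 1
    · obtain ⟨e, b1, b2, b3⟩ := c
      exact ⟨e, b1, fun a ha ha' => (k a ha ha').imp_right fun k =>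
        ((h.S.π_eq_iff b2 ha).1 (b3.trans k.symm)).resolve_right
          fun k => n ((mul_mem_cancel_left b1).1 (k ▸ ha'))⟩
    · exact ⟨1, one_mem _, fun a ha ha' => (k a ha ha').imp_right fun k => (c ⟨a, ha', ha, k⟩).elim⟩
  obtain ⟨e, he, e3⟩ := e3
  let R := shOf p
  have d8 : finrank (ZMod 2) (ShV p.toSympPair) = 8 := R.finrank_eq (by
    obtain ⟨g, rfl⟩ := isConj_iff.1 cj
    rw [qOf_conj, card_conj_smul, h.card_Q])
  have zC : z ∈ C1 y := mem_C.2 zy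
  have e4 : ∀ a ∈ qOf y, a * z = z * a → R.π a ∈ Submodule.span (ZMod 2) {R.π e} := fun a ha c => by
    rw [mem_span_single]
    rcases e2 a ha c with k | k
    · exact (e3 a k ha).imp (fun k => by rw [k, R.π_one]) fun k => by rw [k]
    · rw [← R.π_mul_z ha]
      exact (e3 _ k (mul_mem ha p.mem)).imp (fun k => by rw [k, R.π_one]) fun k => by rw [k]
  have d4 : 4 ≤ finrank (ZMod 2) (LinearMap.ker (R.N z)) := by
    have := Submodule.finrank_mono (R.range_le_ker zC (h.zz ▸ one_mem _))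
    have := LinearMap.finrank_range_add_finrank_ker (R.N z)
    omega
  have f1 : ∀ v : ShV p.toSympPair, finrank (ZMod 2) (Submodule.span (ZMod 2) {v}) ≤ 1 :=
    fun v => by simpa using finrank_span_le_card (R := ZMod 2) ({v} : Set _)
  have e5 : ∀ a ∈ qOf y, R.N z (R.π a) = 0 → R.π a ∉ Submodule.span (ZMod 2) {R.π e} →
      z * a * z⁻¹ = a * y := fun a ha k k' =>
    ((R.π_eq_iff ha (R.conj_mem zC ha)).1 (by rw [← R.ρ_π z zC a ha, R.N_eq_zero.1 k])).resolve_left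
      fun c => k' (e4 a ha (mul_inv_eq_iff_eq_mul.1 c).symm)
  obtain ⟨v, v1, v2⟩ := exists_not_mem ((f1 (R.π e)).trans_lt (by omega : 1 < _) :
    _ < finrank (ZMod 2) (LinearMap.ker (R.N z)))
  obtain ⟨w, w1, w2⟩ := exists_not_mem (K := Submodule.span (ZMod 2) {R.π e} ⊔
    Submodule.span (ZMod 2) {v}) (W := LinearMap.ker (R.N z)) (by
      have := Submodule.finrank_add_le_finrank_add_finrank (Submodule.span (ZMod 2) {R.π e})
        (Submodule.span (ZMod 2) {v})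
      have := f1 (R.π e)
      have := f1 v
      omega)
  obtain ⟨a, ha, rfl⟩ := R.π_surj v
  obtain ⟨b, hb, rfl⟩ := R.π_surj w
  have := e4 _ (mul_mem ha hb) (mul_inv_eq_iff_eq_mul.1 (by
    rw [← conj_mul, e5 a ha v1 v2, e5 b hb w1 fun k => w2 (Submodule.mem_sup_left k), mul_assoc,
      ← mul_assoc y, ← p.central b hb, mul_assoc, t.yy, mul_one])).symm
  rw [R.π_mul _ ha _ hb] at this
  have := add_mem (Submodule.mem_sup_right (Submodule.mem_span_singleton_self (R.π a)))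
    (Submodule.mem_sup_left this)
  rw [add_add_cancel'] at this
  exact w2 this

end Th

variable (h)

theorem exists_th {g : G} (hg : g ∈ C1 z) (a : ∀ M, h.S.ρ g M = adj M) : ∃ y, h.Th y := by
  obtain ⟨c, hc, a1⟩ := h.lift HN3.M4.S (adj HN3.M4.S) rfl rfl
  have hk := mul_mem hg hc
  have a2 : ∀ M, h.S.ρ (g * c) M = adj (cj HN3.M4.S M) := fun M => by rw [h.S.ρ_mul hg hc, a, a1]; rfl
  set k := g * c
  have hm := mul_mem hk (mul_mem hk hk)
  have a3 : ∀ M, h.S.ρ (k * (k * k)) M = adj M := fun M => by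
    rw [h.S.ρ_mul hk (mul_mem hk hk), h.S.ρ_mul hk hk, a2, a2, a2, adjS]
  have km : k * (k * (k * k) * (k * (k * k))) = k * (k * k) * (k * (k * k)) * k := by group
  set m := k * (k * k)
  have mm : m * m ∈ qOf z := h.S.mem_of_ρ (mul_mem hm hm) fun M => by
    rw [h.S.ρ_mul hm hm, a3, a3, adj_adj]
  obtain ⟨N, e⟩ := fixS _ ((a3 _).symm.trans (h.ρ_comm hm mm (mul_assoc _ _ _).symm))
    ((a2 _).symm.trans (h.ρ_comm hk mm km))
  obtain ⟨u, hu, rfl⟩ := h.S.π_surj N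
  have mk : ∀ {y w : G}, y ∈ C1 z → (∀ M, h.S.ρ y M = adj M) → w ∈ qOf z →
      y * w ∈ C1 z ∧ ∀ M, h.S.ρ (y * w) M = adj M := fun hy e hw =>
    ⟨mul_mem hy (h.pre.le_cent hw), fun M => by
      rw [h.S.ρ_mul hy (h.pre.le_cent hw), h.S.ρ_of_mem hw, e]⟩
  have sq : ∀ {y w : G}, y ∈ C1 z → (∀ M, h.S.ρ y M = adj M) → w ∈ qOf z → y * y ∈ qOf z →
      adj (h.S.π w) + h.S.π (y * y) + h.S.π w = 0 → y * w * (y * w) = 1 ∨ y * w * (y * w) = z :=
    fun {y w} hy e hw yy k => by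
      have c := h.S.conj_mem hy hw
      rw [show y * w * (y * w) = y * w * y⁻¹ * (y * y) * w by group,
        ← h.S.π_eq_zero' (mul_mem (mul_mem c yy) hw), h.S.π_mul _ (mul_mem c yy) _ hw,
        h.S.π_mul _ c _ yy, ← h.S.ρ_π y hy w hw, e, k]
  obtain ⟨y1, y2⟩ := mk hm a3 hu
  rcases sq hm a3 hu mm e with y3 | y3
  · exact ⟨_, y1, y3, y2⟩
  set y := m * u
  obtain ⟨p, hp, p1⟩ := h.S.π_surj e12
  obtain ⟨q, hq, q1⟩ := h.S.π_surj w21
  have yQ : y * y ∈ qOf z := y3 ▸ h.pre.mem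
  rcases sq y1 y2 hp yQ (by rw [y3, h.S.π_z, p1]; rfl) with p2 | p2
  · exact ⟨_, (mk y1 y2 hp).1, p2, (mk y1 y2 hp).2⟩
  rcases sq y1 y2 hq yQ (by rw [y3, h.S.π_z, q1]; rfl) with q2 | q2
  · exact ⟨_, (mk y1 y2 hq).1, q2, (mk y1 y2 hq).2⟩
  have iv : ∀ w ∈ qOf z, y * w * (y * w) = z → y * w * y⁻¹ = w⁻¹ := fun w hw e => by
    rw [show y * w * (y * w) = y * w * y⁻¹ * (y * y * w) by group, y3, ← h.pre.central w hw,
      ← mul_assoc, mul_eq_right] at e
    exact eq_inv_of_mul_eq_one_left e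
  refine ⟨_, (mk y1 y2 (mul_mem hp hq)).1, ?_, (mk y1 y2 (mul_mem hp hq)).2⟩
  rw [show y * (p * q) * (y * (p * q)) = y * p * y⁻¹ * (y * q * y⁻¹) * (y * y * p * q) by group,
    iv p hp p2, iv q hq q2, y3, ← (h.cm' hq hp).2 (by rw [p1, q1]; rfl)]
  group

include h in
theorem perfect [IsSimpleGroup G] : _root_.commutator G = ⊤ :=
  (inferInstance : (_root_.commutator G).Normal).eq_bot_or_eq_top.resolve_left fun e => by
    obtain ⟨p, hp, p1⟩ := h.S.π_surj e12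
    obtain ⟨q, hq, q1⟩ := h.S.π_surj w21
    have := (h.cm hp hq).1 (commutatorElement_eq_one_iff_mul_comm.1 (mem_bot.1
      (e.le (commutator_mem_commutator (mem_top p) (mem_top q)))))
    rw [p1, q1] at this
    exact absurd this (by decide)

theorem all_H0 [IsSimpleGroup G] {x : G} (hx : x ∈ C1 z) (a : Ty τ (h.S.ρ x)) {g : G}
    (hg : g ∈ C1 z) : g ∈ h.H0 := by
  by_contra n
  obtain ⟨k, hk, K, L, k1, k2, k3⟩ : ∃ k ∈ C1 z, Ty adj (h.S.ρ k) := (h.out hg n).elim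
    (fun e => ⟨g, hg, e⟩) fun e => ⟨_, mul_mem hx hg, a.comp e good_τ τ_fr (h.S.ρ_mul hx hg)⟩
  obtain ⟨l, hl, l1⟩ := h.lift _ _ (det_adj1 k1) (det_adj1 k2)
  obtain ⟨y, t⟩ := h.exists_th (mul_mem hl hk) fun M => by
    rw [h.S.ρ_mul hl hk, l1, k3]
    simp only [← mul_assoc, (adj_mul_self K k1).1, one_mul]
    rw [mul_assoc, (adj_mul_self L k2).2, mul_one]
  have y0 : y ∉ h.H0 := by
    rintro ⟨-, e | e⟩
    · obtain ⟨K, k, e⟩ := e.cj good_id (t.act 1)
      exact (not_adj K k).1 fun M _ => (t.act M).symm.trans (e M)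
    · obtain ⟨K, k, e⟩ := e.cj good_τ (t.act 1)
      exact (not_adj K k).2 ((t.act W).symm.trans (e W))
  obtain ⟨c, -, c1, c2⟩ := Apw.thompson h.perfect (H := C1 z) (T := h.H0) (R := qOf z ⊓ C1 y)
    (Apw.odd_index h.pre.isPGroup h.pre.le_cent fun u hu e =>
      (h.pre.mem_iff.1 (h.pre.cent e)).resolve_left (h.pre.qOf_of_conj (isConj_iff.1 hu)).ne_one)
    h.idx (orderOf_eq_prime ((_root_.sq y).trans t.yy) fun e => t.notMem (e ▸ one_mem _))
    (h.pre.isPGroup.to_le inf_le_left) fun r hr => mem_C.1 hr.2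
  have cm : ∀ r, c * r * c⁻¹ ∈ C1 z → r * (c⁻¹ * z * c) = c⁻¹ * z * c * r := fun r e => by
    have := mem_C.1 e
    calc r * (c⁻¹ * z * c) = c⁻¹ * (c * r * c⁻¹ * z) * c := by group
      _ = _ := by rw [this]; group
  have cj : IsConj z (c⁻¹ * z * c) := isConj_iff.2 ⟨c⁻¹, by rw [inv_inv]⟩
  have b1 : c⁻¹ * z * c ∈ C1 z :=
    mem_C.2 (cm z (c2 z ⟨h.pre.mem, mem_C.2 (mem_C.1 t.mem).symm⟩)).symm
  have b2 : ∀ a ∈ qOf z, y * a = a * y → a * (c⁻¹ * z * c) = c⁻¹ * z * c * a := fun a ha e =>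
    cm a (c2 a ⟨ha, mem_C.2 e.symm⟩)
  rcases t.cen b1 (fun p hp e => .inl (by rw [h.ρ_comm b1 hp (b2 p hp e).symm, add_self])) with
    b3 | b3
  · rcases t.rad b3 (cm y c1.1) b2 with e | e
    · have hc : c ∈ C1 z := mem_C.2 (by
        have := ((h.S.π_eq_zero' b3).1 e).resolve_left
          (h.pre.qOf_of_conj (isConj_iff.1 cj)).ne_one
        rw [mul_assoc, inv_mul_eq_iff_eq_mul] at this
        exact this.symm)
      by_cases d : c ∈ h.H0
      · exact y0 ((mul_mem_cancel_left d).1 ((mul_mem_cancel_right (inv_mem d)).1 c1))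
      · exact d (inv_mem_iff.1 ((mul_mem_cancel_left (h.idx c hc y t.mem d y0)).1 c1))
    · exact h.hD _ b3 (by rw [e]; rfl) cj
  · exact Th.not_conj ⟨b1, (h.pre.qOf_of_conj (isConj_iff.1 cj)).mul_self, b3⟩ cj

end HC

end Cfsg.Lib.X9
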