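import Cfsg.Agent.HN3.StabFin
import Mathlib.Algebra.Module.ZMod

/-!
Finite facts on two by two matrices over the field with four elements.
-/

set_option autoImplicit false

namespace Cfsg.Lib.X9.HF

open Cfsg.Lib.HN3.M4

instance instMod : Module (ZMod 2) E :=
  AddCommGroup.zmodModule fun x => by rw [two_nsmul, add_self]

instance instFin : Finite E := Nat.finite_of_card_ne_zero (by rw [card_E]; decide)

/-- The conjugate matrix. -/
def fr (M : E) : E := ⟨M.a.fr, M.b.fr, M.c.fr, M.d.fr⟩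
/-- A matrix unit. -/
def e11 : E := ⟨.i, .o, .o, .o⟩
/-- A matrix unit. -/
def e12 : E := ⟨.o, .i, .o, .o⟩
/-- A matrix unit. -/
def e21 : E := ⟨.o, .o, .i, .o⟩
/-- A multiple of a matrix unit. -/
def w11 : E := ⟨.w, .o, .o, .o⟩
/-- A multiple of a matrix unit. -/
def w12 : E := ⟨.o, .w, .o, .o⟩
/-- A multiple of a matrix unit. -/
def w21 : E := ⟨.o, .o, .w, .o⟩

theorem fr_add (M N : E) : fr (M + N) = fr M + fr N := by simp only [fr, E.add_def, F4.fr_add]
theorem fr_mul (M N : E) : fr (M * N) = fr M * fr N := by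
  simp only [fr, E.mul_def, F4.fr_add, F4.fr_mul]
theorem fr_fr : ∀ M, fr (fr M) = M := by decide +kernel
theorem fr_adj (M : E) : fr (adj M) = τ M := rfl
theorem adj_fr (M : E) : adj (fr M) = τ M := rfl
theorem fr_τ : ∀ M, fr (τ M) = adj M := by decide +kernel
theorem τ_fr : ∀ M, τ (fr M) = adj M := by decide +kernel
theorem τ_adj (M : E) : τ (adj M) = fr M := rfl
theorem adj_τ (M : E) : adj (τ M) = fr M := rfl
theorem det_fr : ∀ M, (det (fr M) = 0 ↔ det M = 0) ∧ (det (fr M) = 1 ↔ det M = 1) ∧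
    qf (fr M) = qf M := by decide +kernel
theorem det_one : ∀ M, det M = 1 ↔ qf M = false ∧ ¬ det M = 0 := by decide +kernel
theorem det_mul1 {K L : E} (h : det K = 1) (h' : det L = 1) : det (K * L) = 1 := by
  rw [det_mul, h, h', mul_one]
theorem det_adj1 {K : E} (h : det K = 1) : det (adj K) = 1 := by rw [det_adj, h]
theorem det_fr1 {K : E} (h : det K = 1) : det (fr K) = 1 := (det_fr K).2.1.2 h
theorem det_1 : det 1 = 1 := by decide
theorem bf_eq (M N : E) : bf M N = xor (qf (M + N)) (xor (qf M) (qf N)) := by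
  rw [qf_add]; cases qf M <;> cases qf N <;> cases bf M N <;> rfl

/-- A basis over the prime field. -/
def Bs : List E := [1, W, e11, w11, e12, w12, e21, w21]

theorem sum8 : ∀ M : E, ∃ l ∈ Bs.sublists, M = l.sum := by decide +kernel

theorem ind8 {p : E → Prop} (ha : ∀ M N, p M → p N → p (M + N)) (h : ∀ M ∈ Bs, p M) (M : E) :
    p M := by
  obtain ⟨l, hl, rfl⟩ := sum8 M
  exact List.sum_induction p ha (add_self 1 ▸ ha _ _ (h 1 (by simp [Bs])) (h 1 (by simp [Bs])))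
    fun x hx => h x ((List.mem_sublists.1 hl).subset hx)

theorem ext8 {φ ψ : E → E} (h1 : ∀ M N, φ (M + N) = φ M + φ N)
    (h2 : ∀ M N, ψ (M + N) = ψ M + ψ N) (h : ∀ M ∈ Bs, φ M = ψ M) : ∀ M, φ M = ψ M :=
  ind8 (p := fun M => φ M = ψ M) (fun M N a b => by rw [h1, h2, a, b]) h

theorem cj_add (K M N : E) : cj K (M + N) = cj K M + cj K N := by simp only [cj, mul_add, add_mul]
theorem cj_1 {K : E} (h : det K = 1) : cj K 1 = 1 := by rw [cj, mul_one, (adj_mul_self K h).2]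
theorem det_cj {K : E} (h : det K = 1) (M : E) : det (cj K M) = det M := by
  rw [cj, det_mul, det_mul, det_adj, h, one_mul, mul_one]

theorem scal : ∀ M, qf M = true → (∀ N, det N = 0 → det (N + 1) = 1 → bf M N = false) →
    M = W ∨ M = W + 1 := by decide +kernel
theorem idem : ∀ M, det M = 0 → bf M 1 = false → bf M W = true → ∃ H, det H = 1 ∧ cj H M = e11 := by
  decide +kernel

/-- The conditions on the image of a nilpotent element. -/
def C0 (p : E) : Prop := det p = 0 ∧ det (p + e11) = 0 ∧ det (p + 1 + e11) = 0 ∧ bf p W = false ∧ p ≠ 0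
instance (p : E) : Decidable (C0 p) := by unfold C0; infer_instance

set_option synthInstance.maxSize 4000 in
set_option synthInstance.maxHeartbeats 200000 in
theorem search : ∀ p, C0 p → ∀ p', C0 p' → det (p + p') = 0 → p ≠ p' → ∀ r, C0 r → bf p r = false →
    bf p' r = true → ¬ det (p + r) = 0 → ∀ r', C0 r' → det (r + r') = 0 → bf p r' = true →
    bf p' r' = true → ∀ m, det m = 0 → det (m + e11) = 0 → bf m 1 = true → bf m W = true →
    bf m p = false → bf m p' = false → bf m r = false → bf m r' = false →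
    det (m + 1 + e11 + p' + r) = 0 → ∃ H, det H = 1 ∧
      ((cj H e11 = e11 ∧ cj H w11 = m ∧ cj H e12 = p ∧ cj H w12 = p' ∧ cj H e21 = r ∧
        cj H w21 = r') ∨ (cj H (adj e11) = e11 ∧ cj H (adj w11) = m ∧ cj H (adj e12) = p ∧
        cj H (adj w12) = p' ∧ cj H (adj e21) = r ∧ cj H (adj w21) = r')) := by
  decide +kernel

/-- Additive bijections that keep the singular matrices and the quadratic form. -/
structure Ok (f : E → E) : Prop where
  add : ∀ M N, f (M + N) = f M + f N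
  surj : Function.Surjective f
  h0 : ∀ M, det (f M) = 0 ↔ det M = 0
  hq : ∀ M, qf (f M) = qf M

theorem Ok.comp {f g : E → E} (h : Ok f) (k : Ok g) : Ok fun M => f (g M) :=
  ⟨fun M N => by rw [k.add, h.add], h.surj.comp k.surj, fun M => (h.h0 _).trans (k.h0 M),
    fun M => (h.hq _).trans (k.hq M)⟩

theorem Ok.hb {f : E → E} (h : Ok f) (M N : E) : bf (f M) (f N) = bf M N := by
  rw [bf_eq, bf_eq M, ← h.add, h.hq, h.hq, h.hq]

theorem Ok.h1 {f : E → E} (h : Ok f) (M : E) : det (f M) = 1 ↔ det M = 1 := by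
  rw [det_one, det_one, h.hq, h.h0]

theorem Ok.ne {f : E → E} (h : Ok f) {M N : E} (e : M ≠ N) : f M ≠ f N :=
  (Finite.injective_iff_surjective.2 h.surj).ne e

theorem ok_mul {K L : E} (h : det K = 1) (h' : det L = 1) : Ok fun M => K * M * L :=
  ⟨fun M N => by rw [mul_add, add_mul], fun M => ⟨adj K * M * adj L, by
    simp only [← mul_assoc, (adj_mul_self K h).2, one_mul]
    rw [mul_assoc, (adj_mul_self L h').1, mul_one]⟩,
    fun M => by rw [det_mul, det_mul, h, h', one_mul, mul_one],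
    fun M => by rw [qf, det_mul, det_mul, h, h', one_mul, mul_one, qf]⟩

theorem ok_fr : Ok fr :=
  ⟨fr_add, fun M => ⟨fr M, fr_fr M⟩, fun M => (det_fr M).1, fun M => (det_fr M).2.2⟩

theorem fr_cj (K M : E) : fr (cj K M) = cj (fr K) (fr M) := by
  simp only [cj, fr_mul]; rfl

theorem core1 {f : E → E} (h : Ok f) (a1 : f 1 = 1) (a2 : f W = W) (a3 : f e11 = e11) :
    ∃ H, det H = 1 ∧ ((∀ M, f M = cj H M) ∨ ∀ M, f M = cj H (adj M)) := by
  have z0 : f 0 = 0 := by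
    have := h.add 0 0
    rwa [add_zero, add_self] at this
  have c : ∀ p, C0 p → C0 (f p) := fun p ⟨b1, b2, b3, b4, b5⟩ =>
    ⟨(h.h0 _).2 b1, by rw [← a3, ← h.add]; exact (h.h0 _).2 b2,
      by rw [← a3, ← a1, ← h.add, ← h.add]; exact (h.h0 _).2 b3,
      by rw [← a2, h.hb]; exact b4, z0 ▸ h.ne b5⟩
  have d : ∀ M N, det (M + N) = 0 → det (f M + f N) = 0 := fun M N e => by
    rw [← h.add]; exact (h.h0 _).2 e
  obtain ⟨H, h1, h2⟩ := search _ (c e12 (by decide)) _ (c w12 (by decide)) (d _ _ (by decide))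
    (h.ne (by decide)) _ (c e21 (by decide)) (by rw [h.hb]; rfl) (by rw [h.hb]; rfl)
    (by rw [← h.add, h.h0]; decide) _ (c w21 (by decide)) (d _ _ (by decide)) (by rw [h.hb]; rfl)
    (by rw [h.hb]; rfl) (f w11) ((h.h0 _).2 (by decide)) (a3 ▸ d _ _ (by decide))
    (by rw [← a1, h.hb]; rfl) (by rw [← a2, h.hb]; rfl) (by rw [h.hb]; rfl) (by rw [h.hb]; rfl)
    (by rw [h.hb]; rfl) (by rw [h.hb]; rfl)
    (by rw [← a1, ← a3, ← h.add, ← h.add, ← h.add, ← h.add, h.h0]; decide)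
  refine ⟨H, h1, h2.imp (fun k => ext8 h.add (cj_add H) ?_)
    fun k => ext8 h.add (fun M N => by rw [adj_add, cj_add]) ?_⟩ <;>
    obtain ⟨k1, k2, k3, k4, k5, k6⟩ := k <;>
    simp only [Bs, List.mem_cons, List.not_mem_nil, or_false, forall_eq_or_imp, forall_eq] <;>
    exact ⟨a1.trans (cj_1 h1).symm, a2.trans (cjW H h1).1.symm, a3.trans k1.symm, k2.symm, k3.symm,
      k4.symm, k5.symm, k6.symm⟩

theorem core2 {f : E → E} (h : Ok f) (a1 : f 1 = 1) (a2 : f W = W) :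
    ∃ H, det H = 1 ∧ ((∀ M, f M = cj H M) ∨ ∀ M, f M = cj H (adj M)) := by
  obtain ⟨K, k1, k2⟩ := idem (f e11) ((h.h0 _).2 (by decide)) (by rw [← a1, h.hb]; rfl)
    (by rw [← a2, h.hb]; rfl)
  obtain ⟨H, h1, h2⟩ := core1 ((ok_mul k1 (det_adj1 k1)).comp h) (by rw [a1]; exact cj_1 k1)
    (by rw [a2]; exact (cjW K k1).1) k2
  have e : ∀ M N, cj K M = cj H N → M = cj (adj K * H) N := fun M N e => by
    rw [← cj_cj, ← e, cj_cj, (adj_mul_self K k1).1, cj_one]
  exact ⟨_, det_mul1 (det_adj1 k1) h1, h2.imp (fun k M => e _ _ (k M)) fun k M => e _ _ (k M)⟩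

theorem core3 {f : E → E} (h : Ok f) (a1 : f 1 = 1) :
    ∃ H, det H = 1 ∧ ((∀ M, f M = cj H M) ∨ (∀ M, f M = cj H (τ M)) ∨
      (∀ M, f M = cj H (adj M)) ∨ ∀ M, f M = cj H (fr M)) := by
  rcases scal (f W) ((h.hq W).trans rfl) (fun N b1 b2 => by
    obtain ⟨N, rfl⟩ := h.surj N
    rw [← a1, ← h.add, h.h1] at b2
    rw [h.hb]
    revert b1 b2
    rw [h.h0]
    revert N
    decide +kernel) with a2 | a2
  · obtain ⟨H, h1, h2⟩ := core2 h a1 a2
    exact ⟨H, h1, h2.imp_right fun k => .inr (.inl k)⟩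
  · obtain ⟨H, h1, h2⟩ := core2 (ok_fr.comp h) (by rw [a1]; rfl) (by rw [a2]; rfl)
    have e : ∀ M N, fr M = cj H N → M = cj (fr H) (fr N) := fun M N e => by
      rw [← fr_cj, ← e, fr_fr]
    exact ⟨_, det_fr1 h1, .inr (h2.elim (fun k => .inr (.inr fun M => e _ _ (k M)))
      fun k => .inl fun M => e _ _ (k M))⟩

/-- The maps `K γ(M) L`. -/
def Ty (γ f : E → E) : Prop := ∃ K L, det K = 1 ∧ det L = 1 ∧ ∀ M, f M = K * γ M * L

theorem Ok.ty {f : E → E} (h : Ok f) : Ty id f ∨ Ty τ f ∨ Ty adj f ∨ Ty fr f := by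
  have k := (h.h1 1).2 det_1
  obtain ⟨H, h1, h2⟩ := core3 ((ok_mul (det_adj1 k) det_1).comp h)
    (by rw [mul_one, (adj_mul_self _ k).1])
  have e : ∀ {γ : E → E}, (∀ M, adj (f 1) * f M * 1 = cj H (γ M)) → Ty γ f := fun e =>
    ⟨_, _, det_mul1 k h1, det_adj1 h1, fun M => by
      rw [mul_assoc, mul_assoc, ← mul_assoc H, ← cj, ← e, mul_one, ← mul_assoc,
        (adj_mul_self _ k).2, one_mul]⟩
  exact h2.imp e (Or.imp e (Or.imp e e))

/-- Involutions normalising the two-sided multiplications. -/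
structure Good (γ : E → E) : Prop where
  inv : ∀ M, γ (γ M) = M
  one : γ 1 = 1
  mul : ∀ K L, det K = 1 → det L = 1 → Ty γ fun M => γ (K * M * L)

theorem good_id : Good id := ⟨fun _ => rfl, rfl, fun K L h h' => ⟨K, L, h, h', fun _ => rfl⟩⟩
theorem good_τ : Good τ := ⟨ττ, rfl, fun K L h h' => ⟨τ L, τ K, det_τ _ h', det_τ _ h,
  fun M => by simp only [τ_mul, mul_assoc]⟩⟩
theorem good_adj : Good adj := ⟨adj_adj, rfl, fun K L h h' => ⟨adj L, adj K, det_adj1 h',
  det_adj1 h, fun M => by simp only [adj_mul, mul_assoc]⟩⟩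
theorem good_fr : Good fr := ⟨fr_fr, rfl, fun K L h h' => ⟨fr K, fr L, det_fr1 h,
  det_fr1 h', fun M => by simp only [fr_mul]⟩⟩

theorem Ty.comp {γ δ ε f g k : E → E} (h : Ty γ f) (h' : Ty δ g) (hγ : Good γ)
    (e : ∀ M, γ (δ M) = ε M) (e' : ∀ M, k M = f (g M)) : Ty ε k := by
  obtain ⟨K, L, a1, a2, a3⟩ := h
  obtain ⟨K', L', b1, b2, b3⟩ := h'
  obtain ⟨K'', L'', c1, c2, c3⟩ := hγ.mul K' L' b1 b2
  exact ⟨_, _, det_mul1 a1 c1, det_mul1 c2 a2, fun M => by
    rw [e', a3, b3, show γ (K' * δ M * L') = _ from c3 _, e]; simp only [mul_assoc]⟩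

theorem Ty.inv {γ f g : E → E} (h : Ty γ f) (hγ : Good γ) (e : ∀ M, f (g M) = M) : Ty γ g := by
  obtain ⟨K, L, a1, a2, a3⟩ := h
  obtain ⟨K', L', c1, c2, c3⟩ := hγ.mul _ _ (det_adj1 a1) (det_adj1 a2)
  refine ⟨K', L', c1, c2, fun M => ?_⟩
  rw [← c3, ← hγ.inv (g M)]
  congr 1
  conv_rhs => rw [← e M, a3]
  simp only [← mul_assoc, (adj_mul_self K a1).1, one_mul]
  rw [mul_assoc, (adj_mul_self L a2).2, mul_one]

theorem Ty.cj {γ f : E → E} (h : Ty γ f) (hγ : Good γ) (e : f 1 = 1) :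
    ∃ K, det K = 1 ∧ ∀ M, f M = cj K (γ M) := by
  obtain ⟨K, L, a1, a2, a3⟩ := h
  rw [a3, hγ.one, mul_one] at e
  exact ⟨K, a1, fun M => by rw [a3, eq_adj a1 e]; rfl⟩

theorem not_adj : ∀ K, det K = 1 → ¬ (∀ M ∈ Bs, adj M = cj K M) ∧ adj W ≠ cj K (τ W) := by
  decide +kernel

theorem orb12 : ∀ M, det M = 0 → M ≠ 0 → ∃ K L, det K = 1 ∧ det L = 1 ∧ K * M * L = e12 :=
  fun M h h' => by
    obtain ⟨K, k, -, -, L, l, e⟩ := (orb0 M h).resolve_left h'
    exact ⟨K, L * ⟨0, 1, 1, 0⟩, k, det_mul1 l rfl, by rw [← mul_assoc, e]; rfl⟩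

/-- A diagonal matrix. -/
def Dg : E := ⟨.w, .o, .o, .v⟩
/-- An element of order three fixing `e12`. -/
def tor (M : E) : E := Dg * M * Dg

set_option synthInstance.maxSize 4000 in
theorem unip : ∀ K, det K = 1 → ∀ L, det L = 1 → K * e12 * L = e12 →
    K * (K * 1 * L) * L = 1 → ¬ (K = 1 ∧ L = 1) →
    (∃ M, bf M e12 = false ∧ K * M * L + M = w12) ∧ ∃ M, bf M e12 = false ∧
      (qf (K * M * L + M) = true ∨ K * M * L + M = 1 ∨ tor (K * M * L + M) = 1 ∨
        tor (tor (K * M * L + M)) = 1 ∨ tor (K * M * L + M) = K * w21 * L + w21 ∨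
        tor (tor (K * M * L + M)) = K * w21 * L + w21) := by decide +kernel

set_option synthInstance.maxSize 4000 in
theorem semi : ∀ M, bf M 1 = false → bf M (tor 1) = false → bf M e12 = false → bf M w12 = false →
    det M = 0 → ∀ K, det K = 1 → cj K e12 = e12 → cj K M ≠ e12 + M ∧ cj K (adj M) ≠ e12 + M := by
  decide +kernel
theorem semi' : ∀ K, det K = 1 → cj K e12 = e12 → cj K (fr (tor 1)) + tor 1 ≠ 0 ∧
    cj K (fr (tor 1)) + tor 1 ≠ e12 := by decide +kernel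
theorem inv_W : ∀ K, det K = 1 → K ≠ 1 → (∀ M ∈ Bs, cj K (cj K M) = M) → ∃ M, cj K M + M = W := by
  decide +kernel
theorem free_τ : ∀ M, τ M = M → ∃ N, τ N + N = M := by decide +kernel

/-- Four nilpotent matrices. -/
def N4 : List E := [e12, w12, e21, w21]

theorem cen4 : ∀ K, det K = 1 → ((∀ M ∈ N4, cj K M + M = 0 ∨ cj K M + M = 1) → K = 1) ∧
    (¬ ∀ M ∈ N4, cj K (τ M) + M = 0 ∨ cj K (τ M) + M = 1) ∧
    ((∀ M ∈ N4, cj K (adj M) + M = 0 ∨ cj K (adj M) + M = 1) → K = 1) ∧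
    ¬ ∀ M ∈ N4, cj K (fr M) + M = 0 ∨ cj K (fr M) + M = 1 := by decide +kernel
theorem N4_adj : ∀ M ∈ N4, adj M = M ∧ bf M 1 = false ∧ bf M W = false := by decide
theorem rad : ∀ M, adj M = M → (∀ N ∈ N4, bf N M = false ∨ bf (N + W) M = false) →
    M = 0 ∨ M = 1 ∨ M = W ∨ M = W + 1 := by decide +kernel
theorem fixS : ∀ M, adj M = M → adj (cj S M) = M → ∃ N, adj N + M + N = 0 := by decide +kernel
theorem adjS : ∀ M, adj (cj S (adj (cj S (adj (cj S M))))) = adj M := by decide +kernel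
theorem nil3 : ∀ M, bf M 1 = false → bf M W = false → ∃ N, (tr N = 0 ∧ det N = 0) ∧
    ∃ P, (tr P = 0 ∧ det P = 0) ∧ tr (M + N + P) = 0 ∧ det (M + N + P) = 0 := by decide +kernel
theorem nil_cj : ∀ N, tr N = 0 → det N = 0 → N = 0 ∨ ∃ H, det H = 1 ∧ cj H e12 = N := by
  decide +kernel
theorem tr0 : ∀ M, bf M 1 = false → bf M W = false → qf M = false →
    det M = 0 ∨ det (M + 1) = 0 := by decide +kernel
theorem ord3 : ∀ K, det K = 1 → tr K = 1 → K * (K * K) = 1 ∧ K ≠ 1 := by decide +kernel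

end Cfsg.Lib.X9.HF
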