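import Cfsg.Agent.X9.HDefs

/-!
Fusion of the central involution in the centraliser of a non-central involution.
-/

set_option autoImplicit false
set_option linter.unusedSectionVars false

namespace Cfsg.Lib.X9

open Subgroup Cfsg.Lib.Local Cfsg.Lib.LX Cfsg.Lib.HN3.M4 HF Module Cfsg.Lib.Gold Cfsg.Lib.Solv
open scoped commutatorElement Pointwise

universe u

variable {G : Type u} [Group G] [Finite G]

theorem exists_b_sep {Q : Subgroup G} {z : G} {V : Type*} [AddCommGroup V] [Module (ZMod 2) V]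
    (R : Sh Q z V) {u v : V} (h0 : u ≠ 0) (h1 : u ≠ v) : ∃ w, R.b w u = 1 ∧ R.b w v = 0 := by
  by_contra! k
  obtain ⟨w₀, e⟩ := R.exists_b h0
  refine h1 (R.b_ext fun w => ?_)
  rcases z2_cases (R.b w u) with c | c
  · have := k (w + w₀) (by rw [map_add, LinearMap.add_apply, c, e, zero_add])
    rw [map_add, LinearMap.add_apply, z2_ne_zero.1 (k w₀ e), z2_ne_zero, add_eq_right] at this
    rw [c, this]
  · rw [c, z2_ne_zero.1 (k w c)]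

namespace HC

variable {z : G} (h : HC z)

theorem exists_E : ∃ s, NW z s ∧ h.S.π s = e12 ∧ 1 ∈ h.S.E s ∧ tor 1 ∈ h.S.E s ∧ w12 ∈ h.S.E s := by
  obtain ⟨s, n, πs⟩ := h.exists_s
  obtain ⟨a, ha, aQ, K, L, k, l, e⟩ : ∃ a ∈ BB z s, a ∉ qOf z ∧ Ty id (h.S.ρ a) := by
    obtain ⟨a, ha, b, hb, ⟨-, a1 | a1⟩, b1, n1, n2, n3⟩ := n.exists_two h.S finrank_E (K := h.H0)
      fun a ha b hb => h.idx a ha.2 b hb.2
    · exact ⟨a, ha, n1, a1⟩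
    · exact b1.2.elim (fun b1 => ⟨b, hb, n2, b1⟩) fun b1 =>
        ⟨_, mul_mem ha hb, n3, a1.comp b1 good_τ ττ (h.S.ρ_mul ha.2 hb.2)⟩
  simp only [id] at e
  have t : ∀ M ∈ h.S.E s, tor M ∈ h.S.E s := fun M hM => by
    obtain ⟨c, hc, c1⟩ := h.lift Dg Dg rfl rfl
    obtain ⟨x, hx, c2⟩ := n.exists_cent h.S hc (by rw [Sh.N_apply, c1, πs]; rfl)
    have := NW.ρ_E h.S (mul_mem hc (h.pre.le_cent hx)) hM
    rwa [conj_eq_of_mem_C c2, h.S.ρ_mul hc (h.pre.le_cent hx), h.S.ρ_of_mem hx, c1] at this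
  have p : ∀ M, bf M e12 = false → K * M * L + M ∈ h.S.E s := fun M b => by
    have := n.N_perp h.S ha (v := M) (by rw [πs]; exact (h.b_eq _ _).2 b)
    rwa [Sh.N_apply, e] at this
  have i : K * w21 * L + w21 ∉ h.S.E s := fun c => aQ (n.inj h.S ha (v := w21)
    (by rw [πs]; exact (h.b_eq' _ _).2 rfl) (by rwa [Sh.N_apply, e]))
  obtain ⟨⟨M, m1, m2⟩, N, n1, n2⟩ := unip K k L l
    (by rw [← e, ← πs]; exact h.ρ_comm ha.2 n.mem (mem_C.1 (n.B_le ha)))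
    (by rw [← e, ← e, ← h.S.ρ_mul ha.2 ha.2, h.S.ρ_of_mem (n.sq_mem ha)])
    fun c => aQ (h.S.mem_of_ρ ha.2 fun M => by rw [e, c.1, c.2, one_mul, mul_one])
  have o : (1 : E) ∈ h.S.E s := by
    have q := p N n1
    rcases n2 with c | c | c | c | c | c
    · exact absurd ((h.q_eq _).1 (n.q_E h.S q)) (by rw [c]; decide)
    · exact c ▸ q
    · exact c ▸ t _ q
    · exact c ▸ t _ (t _ q)
    · exact (i (c ▸ t _ q)).elim
    · exact (i (c ▸ t _ (t _ q))).elim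
  exact ⟨s, n, πs, o, t _ o, m2 ▸ p M m1⟩

/-- The local data. -/
structure Loc (r y x : G) : Prop where
  rQ : r ∈ qOf z
  πr : h.S.π r = 1
  yQ : y ∈ qOf z
  πy : h.S.π y = W
  nil : ∀ a ∈ qOf z, tr (h.S.π a) = 0 → det (h.S.π a) = 0 → h.S.π a ≠ 0 →
    ∃ c, c * r = r * c ∧ c * z * c⁻¹ = a
  xC : x ∈ C1 z
  xcj : ∃ c, c * r = r * c ∧ c * z * c⁻¹ = x
  xK : ∃ K, det K = 1 ∧ ∀ M, h.S.ρ x M = cj K (τ M)
  xy : x * y * x⁻¹ = y * r * z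

theorem exists_loc : ∃ r y x, h.Loc r y x := by
  obtain ⟨s, n, πs, ⟨r, hr, -, πr⟩, o2, o3⟩ := h.exists_E
  have o1 : (1 : E) ∈ h.S.E s := ⟨r, hr, hr.1, πr⟩
  obtain ⟨s', hs', -, πs'⟩ := id o3
  obtain ⟨y, yQ, πy⟩ := h.S.π_surj W
  obtain ⟨a, ha, πa⟩ := h.S.π_surj w21
  obtain ⟨x, hx, πx⟩ := h.S.π_surj e21
  have rD : ¬ IsConj z r := h.hD r hr.1 (by rw [πr]; rfl)
  have a1 : a * s * a⁻¹ = z * s := (h.cm' ha n.mem).2 (by rw [πa, πs]; rfl)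
  have a2 : a * r = r * a := (h.cm ha hr.1).2 (by rw [πa, πr]; rfl)
  have a3 : a * z * a⁻¹ = z := conj_eq_of_mem_C (h.pre.le_cent ha)
  obtain ⟨b, hb, b1, b2⟩ : ∃ b ∈ qOf s, b * z * b⁻¹ = s * z ∧ b * r = r * b := by
    obtain ⟨w, w1, w2⟩ := exists_b_sep (shOf n.ps) (n.symm.π_ne _) (v := (shOf n.ps).π r) fun e =>
      ((shOf n.ps).π_eq_iff n.zs hr.2).1 e |>.elim (fun e => rD (e ▸ IsConj.refl _))
        fun e => rD (e ▸ n.mul.cj)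
    obtain ⟨b, hb, rfl⟩ := (shOf n.ps).π_surj w
    exact ⟨b, hb, ((shOf n.ps).b_π_one hb n.zs).1 w1, ((shOf n.ps).b_π b hb r hr.2).1 w2⟩
  have b3 : b * s * b⁻¹ = s := conj_eq_of_mem_C (n.ps.le_cent hb)
  obtain ⟨g, g1, g2, g3⟩ : ∃ g, g * r = r * g ∧ g * z * g⁻¹ = s ∧ g * s * g⁻¹ = z := by
    have e : ∀ u, a * b * a * u * (a * b * a)⁻¹ = a * (b * (a * u * a⁻¹) * b⁻¹) * a⁻¹ :=
      fun u => by group
    refine ⟨a * b * a, ((Commute.mul_left a2 b2).mul_left a2).eq, ?_, ?_⟩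
    · rw [e, a3, b1, ← conj_mul, a1, a3, mul_assoc, n.comm, ← mul_assoc, h.zz, one_mul]
    · rw [e, a1, ← conj_mul (a := z), b1, b3, n.comm, mul_assoc z, n.ss, mul_one, a3]
  have nil : ∀ u ∈ qOf z, tr (h.S.π u) = 0 → det (h.S.π u) = 0 → h.S.π u ≠ 0 →
      ∃ c, c * r = r * c ∧ c * z * c⁻¹ = u := fun u hu u1 u2 u3 => by
    obtain ⟨H, h1, h2⟩ := (nil_cj _ u1 u2).resolve_left u3
    obtain ⟨k, hk, k1, k2⟩ := h.lift_cj hr.1 πr h1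
    rcases h.conj_or hk n.mem hu (by rw [k2, πs, h2]) with e | e
    · exact ⟨k * g, (Commute.mul_left k1 g1).eq, by rw [← e, ← g2]; group⟩
    · refine ⟨k * a * g, ((Commute.mul_left k1 a2).mul_left g1).eq, ?_⟩
      rw [show k * a * g * z * (k * a * g)⁻¹ = k * (a * (g * z * g⁻¹) * a⁻¹) * k⁻¹ by group, g2, a1,
        ← conj_mul, e, conj_eq_of_mem_C hk, ← h.pre.central _ (mul_mem hu h.pre.mem), mul_assoc,
        h.zz, mul_one]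
  obtain ⟨c, c1, c2⟩ := nil x hx (by rw [πx]; rfl) (by rw [πx]; rfl) (by rw [πx]; decide)
  have cg : ∀ {u v}, u * v = v * u → g * u * g⁻¹ * (g * v * g⁻¹) = g * v * g⁻¹ * (g * u * g⁻¹) :=
    fun e => by rw [conj_mul, conj_mul, e]
  have gr : g * r * g⁻¹ = r := mul_inv_eq_iff_eq_mul.2 g1
  have xB : g * x * g⁻¹ ∈ BB z s := ⟨g2 ▸ mem_qOf_conj hx,
    mem_C.2 (g3 ▸ cg ((h.cm hx n.mem).2 (by rw [πx, πs]; rfl)))⟩
  have xr : g * x * g⁻¹ * r = r * (g * x * g⁻¹) := by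
    have := cg ((h.cm hx hr.1).2 (by rw [πx, πr]; rfl))
    rwa [gr] at this
  have xx : g * x * g⁻¹ * (g * x * g⁻¹) = 1 := by
    rw [conj_mul, (h.sq hx).2 (by rw [πx]; rfl), mul_one, mul_inv_cancel]
  have xD : IsConj z (g * x * g⁻¹) := (isConj_iff.2 ⟨c, c2⟩).trans (isConj_conj g x)
  have xrD : ¬ IsConj z (g * x * g⁻¹ * r) := fun e => h.hD _ (mul_mem hx hr.1)
    (by rw [h.S.π_mul _ hx _ hr.1, πx, πr]; rfl)
    (e.trans (isConj_iff.2 ⟨g⁻¹, by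
      rw [← conj_mul, show g⁻¹ * r * g⁻¹⁻¹ = r by rw [inv_inv, mul_assoc, ← g1]; group]; group⟩))
  have sQ : g * s' * g⁻¹ ∈ qOf z := g3 ▸ mem_qOf_conj hs'.2
  have sE := (n.mem_E h.S sQ).2 (g2 ▸ mem_qOf_conj hs'.1)
  have s1 : h.S.ρ (g * x * g⁻¹) (h.S.π (g * s' * g⁻¹)) = e12 + h.S.π (g * s' * g⁻¹) := by
    rw [h.S.ρ_π _ xB.2 _ sQ, show g * x * g⁻¹ * (g * s' * g⁻¹) * (g * x * g⁻¹)⁻¹ =
      g * (x * s' * x⁻¹) * g⁻¹ by group, (h.cm' hx hs'.1).2 (by rw [πx, πs']; rfl), ← conj_mul, g2,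
      h.S.π_mul _ n.mem _ sQ, πs]
  have s2 : h.S.ρ (g * x * g⁻¹) e12 = e12 := πs ▸ h.ρ_comm xB.2 n.mem (mem_C.1 (n.B_le xB))
  have s3 := semi _ ((h.b_eq _ _).1 (n.b_E h.S sE o1)) ((h.b_eq _ _).1 (n.b_E h.S sE o2))
    ((h.b_eq _ _).1 (n.b_E h.S sE (πs ▸ n.s_mem_E h.S))) ((h.b_eq _ _).1 (n.b_E h.S sE o3))
    (h.det0 sQ ((h.mem_D hs'.1 (by rw [πs']; rfl) (by rw [πs']; decide)).trans (isConj_conj g s')))
  obtain ⟨K, k1, k2⟩ := h.stab xB.2 (πr ▸ h.ρ_comm xB.2 hr.1 xr)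
  have k3 : ∀ M, h.S.ρ (g * x * g⁻¹) M = cj K (τ M) := by
    rcases k2 with e | e | e | e
    · exact ((s3 K k1 (e _ ▸ s2)).1 (e _ ▸ s1)).elim
    · exact e
    · exact ((s3 K k1 ((e e12).symm.trans s2)).2 (e _ ▸ s1)).elim
    · have := n.N_E h.S xB o2
      rw [Sh.N_apply, e, πs] at this
      exact (this.elim (semi' K k1 ((e e12).symm.trans s2)).1
        (semi' K k1 ((e e12).symm.trans s2)).2).elim
  refine ⟨r, y, _, hr.1, πr, yQ, πy, nil, xB.2,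
    ⟨g * c, (Commute.mul_left g1 c1).eq, by rw [← c2]; group⟩, ⟨K, k1, k3⟩,
    (h.conj_or xB.2 yQ (mul_mem yQ hr.1) (by
      rw [k3, h.S.π_mul _ yQ _ hr.1, πy, πr, (cjW K k1).2])).resolve_left fun e => xrD ?_⟩
  refine xD.trans (isConj_iff.2 ⟨y * r, ?_⟩)
  set w := g * x * g⁻¹
  have rr : r * r = 1 := (h.sq hr.1).2 (by rw [πr]; rfl)
  have yr : y * r = r * y := (h.cm yQ hr.1).2 (by rw [πy, πr]; rfl)
  calc y * r * w * (y * r)⁻¹ = w * y * w⁻¹ * w * (r * y)⁻¹ := by rw [e, yr]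
    _ = w * r⁻¹ := by group
    _ = w * r := by rw [inv_eq_of_mul_eq_one_right rr]

end HC

end Cfsg.Lib.X9
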