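import Cfsg.Agent.X9.HLoc

/-!
The common centraliser of the two involutions.
-/

set_option autoImplicit false
set_option linter.unusedSectionVars false

namespace Cfsg.Lib.X9

open Subgroup Cfsg.Lib.Local Cfsg.Lib.LX Cfsg.Lib.HN3.M4 HF Module Cfsg.Lib.Gold Cfsg.Lib.Solv
open scoped commutatorElement Pointwise

universe u

variable {G : Type u} [Group G] [Finite G]

namespace HC.Loc

variable {z r y x : G} {h : HC z} (L : h.Loc r y x)
include L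

theorem rr : r * r = 1 := (h.sq L.rQ).2 (by rw [L.πr]; rfl)
theorem r1 : r ≠ 1 := fun e => absurd (L.πr.symm.trans (e ▸ h.S.π_one)) (by decide)
theorem rz : r * z = z * r := h.pre.central r L.rQ
theorem yz : y * z = z * y := h.pre.central y L.yQ
theorem yy : y * y = z := (h.sq' L.yQ).2 (by rw [L.πy]; rfl)
theorem yr : y * r = r * y := (h.cm L.yQ L.rQ).2 (by rw [L.πy, L.πr]; rfl)
theorem π_r {a : G} (ha : a ∈ qOf z) : h.S.π (a * r) = h.S.π a + 1 := by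
  rw [h.S.π_mul _ ha _ L.rQ, L.πr]
theorem cr {a : G} (ha : a ∈ qOf z) : a * r = r * a ↔ bf (h.S.π a) 1 = false := by
  rw [h.cm ha L.rQ, L.πr]
theorem cy {a : G} (ha : a ∈ qOf z) : a * y = y * a ↔ bf (h.S.π a) W = false := by
  rw [h.cm ha L.yQ, L.πy]
theorem xx : x * x = 1 := by
  obtain ⟨c, -, rfl⟩ := L.xcj
  rw [conj_mul, h.zz, mul_one, mul_inv_cancel]
theorem xr : x * r = r * x := by
  obtain ⟨c, e, rfl⟩ := L.xcj
  exact ((Commute.mul_left e L.rz.symm).mul_left (Commute.inv_left e)).eq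
theorem jj : x * y * (x * y) = r := by
  rw [show x * y * (x * y) = x * y * x⁻¹ * (x * x) * y by group, L.xx, mul_one, L.xy, L.yr,
    mul_assoc (r * y), ← L.yz, ← mul_assoc, mul_assoc r, L.yy, mul_assoc, h.zz, mul_one]

theorem rzrz : r * z * (r * z) = 1 := by
  rw [mul_assoc, ← mul_assoc z, ← L.rz, mul_assoc, h.zz, mul_one, L.rr]

theorem cj_rz {g a : G} (hg : g ∈ C1 z) (c : g * r = r * g) :
    g * (a * r * z) * g⁻¹ = g * a * g⁻¹ * r * z := by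
  rw [← conj_mul, ← conj_mul, conj_eq_of_mem_C hg, c, mul_inv_cancel_right]

/-- The subgroup of index two. -/
def Y0 : Subgroup G where
  carrier := {g | g ∈ C1 z ∧ g * r = r * g ∧ (g * y * g⁻¹ = y ∨ g * y * g⁻¹ = y * r * z)}
  one_mem' := ⟨one_mem _, by simp, by simp⟩
  mul_mem' := by
    rintro a b ⟨a1, a2, a3⟩ ⟨b1, b2, b3⟩
    refine ⟨mul_mem a1 b1, (Commute.mul_left a2 b2).eq, ?_⟩
    rw [show a * b * y * (a * b)⁻¹ = a * (b * y * b⁻¹) * a⁻¹ by group]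
    rcases b3 with e | e <;> rw [e]
    · exact a3
    · rw [L.cj_rz a1 a2]
      refine a3.symm.imp (fun k => ?_) fun k => by rw [k]
      rw [k, mul_assoc, mul_assoc y, mul_assoc y, L.rzrz, mul_one]
  inv_mem' := by
    rintro a ⟨a1, a2, a3⟩
    refine ⟨inv_mem a1, (Commute.inv_left a2).eq, a3.imp (fun e => ?_) fun e => ?_⟩ <;>
      rw [inv_inv, mul_assoc, inv_mul_eq_iff_eq_mul, eq_comm, ← mul_inv_eq_iff_eq_mul]
    · exact e
    · rw [L.cj_rz a1 a2, e, mul_assoc, mul_assoc y, mul_assoc y, L.rzrz, mul_one]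

theorem r_Y0 : r ∈ L.Y0 := ⟨h.pre.le_cent L.rQ, rfl, .inl (by rw [← L.yr, mul_inv_cancel_right])⟩

theorem norm_τ {u : G} (hu : u ∈ C1 z) (uu : u * u = 1) {K : E} (k : det K = 1)
    (e : ∀ M, h.S.ρ u M = cj K (τ M)) : ∃ c ∈ C1 z, ∀ M, h.S.ρ (c * u * c⁻¹) M = τ M := by
  have s : ∀ M, cj K (τ (cj K (τ M))) = M := fun M => by
    rw [← e, ← e, ← h.S.ρ_mul hu hu, uu, h.S.ρ_one]
  obtain ⟨H, h1, h2⟩ := swp K k (s _) (s _)
  obtain ⟨c, hc, -, c1⟩ := h.lift_cj L.rQ L.πr h1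
  refine ⟨c, hc, fun M => ?_⟩
  obtain ⟨M, rfl⟩ := (h.ok hc).surj M
  rw [h.S.ρ_mul (mul_mem hc hu) (inv_mem hc), h.S.ρ_inv_ρ hc, h.S.ρ_mul hc hu, e, c1, c1, cj_cj,
    τ_cj, ← mul_one (H * K), ← show τ 1 = 1 from rfl, ← (adj_mul_self H h1).1, τ_mul, ← mul_assoc,
    h2, one_mul]

theorem coset {u : G} (hu : u ∈ C1 z) (uu : u * u = 1) {K : E} (k : det K = 1)
    (e : ∀ M, h.S.ρ u M = cj K (τ M)) : IsConj z u ∨ IsConj z (u * z) := by
  obtain ⟨c, hc, c1⟩ := L.norm_τ hu uu k e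
  obtain ⟨K', k', e'⟩ := L.xK
  obtain ⟨b, hb, b1⟩ := L.norm_τ L.xC L.xx k' e'
  have dD : IsConj z (b * x * b⁻¹) := by
    obtain ⟨c, -, e⟩ := L.xcj
    exact (isConj_iff.2 ⟨c, e⟩).trans (isConj_conj b x)
  have dd : b * x * b⁻¹ * (b * x * b⁻¹) = 1 := by rw [conj_mul, L.xx, mul_one, mul_inv_cancel]
  have hd := mul_mem (mul_mem hb L.xC) (inv_mem hb)
  have ha := mul_mem (mul_mem hc hu) (inv_mem hc)
  have aa : c * u * c⁻¹ * (c * u * c⁻¹) = 1 := by rw [conj_mul, uu, mul_one, mul_inv_cancel]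
  have k1 : IsConj (c * u * c⁻¹) u := (isConj_conj c u).symm
  have k2 : IsConj (c * u * c⁻¹ * z) (u * z) := by
    nth_rewrite 1 [← conj_eq_of_mem_C hc]
    rw [conj_mul]
    exact (isConj_conj c _).symm
  generalize b * x * b⁻¹ = d at *
  generalize c * u * c⁻¹ = a at *
  have hw := h.same ha hd fun M => (c1 M).trans (b1 M).symm
  have di := inv_eq_of_mul_eq_one_right dd
  obtain ⟨N, n⟩ := free_τ (h.S.π (d⁻¹ * a)) (by
    rw [← b1, h.S.ρ_π d hd _ hw, ← h.S.π_inv hw, mul_inv_cancel_left, mul_inv_rev, inv_inv,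
      inv_eq_of_mul_eq_one_right aa, di])
  obtain ⟨v, hv, rfl⟩ := h.S.π_surj N
  rw [← b1, ← Sh.N_apply, h.S.N_π hd hv] at n
  have f : d * ⁅d, v⁆ = v * d * v⁻¹ := by
    rw [commutatorElement_def, ← mul_assoc, ← mul_assoc, ← mul_assoc, dd, one_mul, di]
  refine ((h.S.π_eq_iff (h.S.comm_mem hd hv) hw).1 n).imp (fun k => ?_) fun k => ?_ <;>
    rw [inv_mul_eq_iff_eq_mul] at k
  · exact dD.trans ((isConj_iff.2 ⟨v, f.symm.trans k.symm⟩).trans k1)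
  · refine dD.trans ((isConj_iff.2 ⟨v, ?_⟩).trans k2)
    rw [k, ← mul_assoc, f, mul_assoc _ z, h.zz, mul_one]

variable (all : ∀ g ∈ C1 z, g ∈ h.H0)
include all

theorem stab {g : G} (hg : g ∈ C1 z) (c : g * r = r * g) : ∃ K, det K = 1 ∧
    ((∀ M, h.S.ρ g M = cj K M) ∨ ∀ M, h.S.ρ g M = cj K (τ M)) := by
  have e : h.S.ρ g 1 = 1 := L.πr ▸ h.ρ_comm hg L.rQ c
  rcases (all g hg).2 with a | a
  · exact (a.cj good_id e).imp fun K k => ⟨k.1, .inl k.2⟩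
  · exact (a.cj good_τ e).imp fun K k => ⟨k.1, .inr k.2⟩

theorem idx {a b : G} (a1 : a ∈ C1 z) (a2 : a * r = r * a) (b1 : b ∈ C1 z) (b2 : b * r = r * b)
    (n1 : a ∉ L.Y0) (n2 : b ∉ L.Y0) : a * b ∈ L.Y0 := by
  have k : ∀ g ∈ C1 z, g * r = r * g → g ∉ L.Y0 → g * y * g⁻¹ = y * z ∨ g * y * g⁻¹ = y * r :=
    fun g hg c n => by
      obtain ⟨K, k, e | e⟩ := L.stab all hg c
      · exact .inl ((h.conj_or hg L.yQ L.yQ (by rw [e, L.πy, (cjW K k).1])).resolve_left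
          fun e => n ⟨hg, c, .inl e⟩)
      · exact .inr ((h.conj_or hg L.yQ (mul_mem L.yQ L.rQ)
          (by rw [e, L.π_r L.yQ, L.πy, (cjW K k).2])).resolve_right fun e => n ⟨hg, c, .inr e⟩)
  refine ⟨mul_mem a1 b1, (Commute.mul_left a2 b2).eq, ?_⟩
  rw [show a * b * y * (a * b)⁻¹ = a * (b * y * b⁻¹) * a⁻¹ by group]
  rcases k b b1 b2 n2 with e | e <;> rw [e, ← conj_mul] <;> rcases k a a1 a2 n1 with e' | e' <;>
    rw [e']
  · exact .inl (by rw [conj_eq_of_mem_C a1, mul_assoc, h.zz, mul_one])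
  · exact .inr (by rw [conj_eq_of_mem_C a1])
  · exact .inr (by rw [a2, mul_inv_cancel_right, mul_assoc, ← L.rz, mul_assoc])
  · exact .inl (by rw [a2, mul_inv_cancel_right, mul_assoc, L.rr, mul_one])

theorem lam {u : G} (hu : u ∈ L.Y0) (uu : u * u = 1) :
    u = 1 ∨ u = r ∨ IsConj z u ∨ IsConj z (u * r) := by
  obtain ⟨u1, u2, u3⟩ := hu
  have πy := h.S.ρ_π u u1 y L.yQ
  have w : h.S.π (y * r * z) = W + 1 := by
    rw [h.S.π_mul_z (mul_mem L.yQ L.rQ), L.π_r L.yQ, L.πy]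
  have k : ∀ a ∈ qOf z, det (h.S.π a) = 0 → a = 1 ∨ IsConj z a := fun a ha e => by
    by_cases c : h.S.π a = 0
    · exact ((h.S.π_eq_zero' ha).1 c).imp_right fun e => by rw [e]
    · exact .inr (h.mem_D ha e c)
  by_cases c : u ∈ qOf z
  · have c1 := u3.resolve_right fun e => by
      rw [e, w, h.S.ρ_of_mem c, L.πy] at πy
      exact absurd πy (by decide)
    rcases tr0 _ ((L.cr c).1 u2) ((L.cy c).1 (mul_inv_eq_iff_eq_mul.1 c1)) ((h.sq c).1 uu) with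
      e | e
    · exact (k u c e).imp_right fun e => .inr (.inl e)
    · refine .inr ((k _ (mul_mem c L.rQ) (by rwa [L.π_r c])).imp (fun e => ?_) .inr)
      rw [eq_inv_of_mul_eq_one_left e, inv_eq_of_mul_eq_one_right L.rr]
  obtain ⟨K, k1, e | e⟩ := L.stab all u1 u2
  · obtain ⟨M, m⟩ := inv_W K k1 (fun e' => c (h.S.mem_of_ρ u1 fun M => by rw [e, e', cj_one]))
      fun M _ => by rw [← e, ← e, ← h.S.ρ_mul u1 u1, uu, h.S.ρ_one]
    obtain ⟨a, ha, rfl⟩ := h.S.π_surj M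
    have i := h.inverts u1 uu ha L.yQ (by rw [e, m, L.πy])
    rcases u3 with e' | e'
    · exact (h.pre.ne_one (L.yy.symm.trans (mul_eq_one_iff_eq_inv.2 (e'.symm.trans i)))).elim
    · rw [e', w, e, L.πy, (cjW K k1).1] at πy
      exact absurd πy (by decide)
  · have c1 := u3.resolve_left fun e' => by
      rw [e', e, L.πy, (cjW K k1).2] at πy
      exact absurd πy (by decide)
    refine .inr (.inr ((L.coset u1 uu k1 e).imp_right fun k => k.trans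
      (isConj_iff.2 ⟨y * r * z, ?_⟩)))
    calc y * r * z * (u * z) * (y * r * z)⁻¹ = u * y * u⁻¹ * (u * z) * (r * y * z)⁻¹ := by
          rw [c1, L.yr]
      _ = u * r⁻¹ := by group
      _ = u * r := by rw [inv_eq_of_mul_eq_one_right L.rr]

theorem cen {g : G} (hg : g ∈ C1 z) (c : g * r = r * g)
    (k : ∀ a ∈ qOf z, a * r = r * a → a * y = y * a → ⁅g, a⁆ = 1 ∨ ⁅g, a⁆ = r) : g ∈ qOf z := by
  have a3 : ∀ N ∈ N4, h.S.ρ g N + N = 0 ∨ h.S.ρ g N + N = 1 := fun N hN => by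
    obtain ⟨a, ha, rfl⟩ := h.S.π_surj N
    rw [← Sh.N_apply, h.S.N_π hg ha]
    exact (k a ha ((L.cr ha).2 (N4_adj _ hN).2.1) ((L.cy ha).2 (N4_adj _ hN).2.2)).imp
      (fun e => by rw [e, h.S.π_one]) fun e => by rw [e, L.πr]
  obtain ⟨K, k1, e | e⟩ := L.stab all hg c <;> simp only [e] at a3
  · exact h.S.mem_of_ρ hg fun M => by rw [e, (cen4 K k1).1 a3, cj_one]
  · exact ((cen4 K k1).2.1 a3).elim

theorem ptwo {A : Subgroup G} (h1 : A ≤ C1 z ⊓ C1 r) (h2 : C1 z ⊓ C1 r ≤ Ns A)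
    (h3 : IsPGroup 2 A) : A ≤ qOf z := by
  have cjρ : ∀ {c n : G} {H : E} {f : E → E}, c ∈ C1 z → n ∈ C1 z → det H = 1 →
      (∀ M, h.S.ρ c M = cj H M) → (∀ M, h.S.ρ n M = f M) →
      ∀ M, h.S.ρ (c * n * c⁻¹) M = cj H (f (cj (adj H) M)) := fun {c n H f} hc hn k e1 e2 M => by
    rw [h.S.ρ_mul (mul_mem hc hn) (inv_mem hc), h.S.ρ_mul hc hn, e1, e2]
    congr 2
    apply h.S.ρ_inj hc
    rw [h.S.ρ_ρ_inv hc, e1, cj_cj, (adj_mul_self H k).2, cj_one]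
  have key : ∀ n ∈ A, ∀ K, det K = 1 → (∀ M, h.S.ρ n M = cj K M) → K = 1 := fun n hn K k e => by
    by_contra k1
    obtain ⟨H, hH, t⟩ := nrm1 K k k1
    obtain ⟨c, hc, c1, c2⟩ := h.lift_cj L.rQ L.πr hH
    have m := mul_mem (conj_mem_of_mem_normalizer (h2 ⟨hc, mem_C.2 c1⟩) hn) hn
    have a : ∀ M, h.S.ρ (c * n * c⁻¹ * n) M = cj (cj H K * K) M := fun M => by
      rw [h.S.ρ_mul (mul_mem (mul_mem hc (h1 hn).1) (inv_mem hc)) (h1 hn).1,
        cjρ hc (h1 hn).1 hH c2 e, e, cj_cj, cj_cj, cj_cj]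
      rfl
    obtain ⟨o1, o2⟩ := ord3 _ (det_mul1 ((det_cj hH K).trans k) k) t
    generalize c * n * c⁻¹ * n = d at m a
    have hd := (h1 m).1
    have d3 : d ^ 3 ∈ qOf z := h.S.mem_of_ρ (pow_mem hd 3) fun M => by
      rw [pow_three, h.S.ρ_mul hd (mul_mem hd hd), h.S.ρ_mul hd hd, a, a, a, cj_cj, cj_cj,
        mul_assoc, o1, cj_one]
    obtain ⟨j, hj⟩ := h3 ⟨d, m⟩
    obtain ⟨i, hi⟩ := exists_pow_eq_self_of_coprime (x := d) (n := 3)
      (((show Nat.Coprime 3 2 by decide).pow_right j).coprime_dvd_right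
        (orderOf_dvd_of_pow_eq_one (congrArg Subtype.val hj)))
    have dQ : d ∈ qOf z := hi ▸ pow_mem d3 i
    exact o2 (HN3.M4.cen _ (det_mul1 ((det_cj hH K).trans k) k)
      ((a _).symm.trans (h.S.ρ_of_mem dQ _)) ((a _).symm.trans (h.S.ρ_of_mem dQ _)))
  intro n hn
  obtain ⟨K, k, e | e⟩ := L.stab all (h1 hn).1 (mem_C.1 (h1 hn).2)
  · exact h.S.mem_of_ρ (h1 hn).1 fun M => by rw [e, key n hn K k e, cj_one]
  · obtain ⟨H, hH, t⟩ := nrm3 K k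
    obtain ⟨c, hc, c1, c2⟩ := h.lift_cj L.rQ L.πr hH
    refine (t (key _ (mul_mem (conj_mem_of_mem_normalizer (h2 ⟨hc, mem_C.2 c1⟩) hn) hn) _
      (det_mul1 (det_mul1 (det_mul1 hH k) (det_τ H hH)) (det_τ _ (det_adj1 k))) fun M => ?_)).elim
    rw [h.S.ρ_mul (mul_mem (mul_mem hc (h1 hn).1) (inv_mem hc)) (h1 hn).1,
      cjρ hc (h1 hn).1 hH c2 e, e, τ_cj, τ_cj, ττ, adj_adj, cj_cj, cj_cj, cj_cj]

omit all in
theorem ab {A : Subgroup G} (h1 : A ≤ qOf z) (h2 : C1 z ⊓ C1 r ≤ Ns A)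
    (h3 : ∀ a ∈ A, ∀ b ∈ A, a * b = b * a) {B : Subgroup G} (b1 : y ∈ B) (b2 : r ∈ B) : A ≤ B := by
  intro a ha
  have b3 : z ∈ B := L.yy ▸ mul_mem b1 b1
  have k : ∀ b ∈ qOf z, b ∈ B → h.S.π a = h.S.π b → a ∈ B := fun b hb hb' e => by
    rcases (h.S.π_eq_iff hb (h1 ha)).1 e.symm with e | e <;> rw [e]
    exacts [hb', mul_mem hb' b3]
  rcases ab1 (h.S.π a) (fun K k => by
    obtain ⟨c, hc, c1, c2⟩ := h.lift_cj L.rQ L.πr k
    rw [← c2, h.S.ρ_π c hc a (h1 ha), ← h.cm (h1 ha) (h.S.conj_mem hc (h1 ha))]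
    exact h3 a ha _ (conj_mem_of_mem_normalizer (h2 ⟨hc, mem_C.2 c1⟩) ha)) with e | e | e | e
  · exact k 1 (one_mem _) (one_mem _) (e.trans h.S.π_one.symm)
  · exact k r L.rQ b2 (e.trans L.πr.symm)
  · exact k y L.yQ b1 (e.trans L.πy.symm)
  · exact k _ (mul_mem L.yQ L.rQ) (mul_mem b1 b2) (by rw [e, L.π_r L.yQ, L.πy])

end HC.Loc

end Cfsg.Lib.X9
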